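import Cfsg.Agent.H384.RC.KRule
import Cfsg.Agent.H384.RC.Asm
import Cfsg.Agent.LieClassical.SLGen
import Cfsg.Agent.ClassicalGeometry.SympBasic
import Cfsg.Agent.ClassicalGeometry.Sp4GraphAut

/-!
# S3510 part B, box BP1 (helper287): the pseudo-symplectic polarity, characteristic two, odd dimension

`killed_P1`. The form is `B = 1 + J` on `F ⊕ F^{2m}`, `K = Sp_{2m}(F)` acting on the second summand.
-/

set_option autoImplicit false
set_option linter.unusedSectionVars false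

open Matrix Cfsg
open Cfsg.Agent.H106.RC Cfsg.Agent.H999.PslGraph Cfsg.Agent.H384.RC
open Cfsg.Agent.ClassicalGeometry.AutPSL.Auto Cfsg.Agent.ClassicalGeometry.SympBasic

namespace Cfsg.Agent.H287.RC

variable {F : Type} [Field F] {m : ℕ}

/-- the block matrix `1 ⊕ k` -/
def blkM (m : ℕ) (F : Type) [Field F] :
    symplecticGroup (Fin m) F →* Matrix (Unit ⊕ (Fin m ⊕ Fin m)) (Unit ⊕ (Fin m ⊕ Fin m)) F where
  toFun k := fromBlocks 1 0 0 (k : Matrix (Fin m ⊕ Fin m) (Fin m ⊕ Fin m) F)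
  map_one' := fromBlocks_one
  map_mul' k l := by
    rw [fromBlocks_multiply]
    simp

/-- the block matrix `1 ⊕ k` in `GL` -/
def blk (m : ℕ) (F : Type) [Field F] : symplecticGroup (Fin m) F →* GL (Unit ⊕ (Fin m ⊕ Fin m)) F :=
  (blkM m F).toHomUnits

theorem coe_blk (k : symplecticGroup (Fin m) F) :
    (blk m F k : Matrix (Unit ⊕ (Fin m ⊕ Fin m)) (Unit ⊕ (Fin m ⊕ Fin m)) F) =
    fromBlocks 1 0 0 (k : Matrix (Fin m ⊕ Fin m) (Fin m ⊕ Fin m) F) := rfl

theorem blk_det (k : symplecticGroup (Fin m) F) :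
    (blk m F k : Matrix (Unit ⊕ (Fin m ⊕ Fin m)) (Unit ⊕ (Fin m ⊕ Fin m)) F).det = 1 := by
  rw [coe_blk, det_fromBlocks_zero₂₁, det_one, one_mul, SymplecticGroup.det_eq_one k.2]

theorem map_mul' {κ κ' κ'' : Type} [Fintype κ'] (σ : F ≃+* F) (a : Matrix κ κ' F) (b : Matrix κ' κ'' F) :
    (a * b).map σ = a.map σ * b.map σ := Matrix.map_mul (f := (σ : F →+* F))

theorem J_map (σ : F ≃+* F) : (J (Fin m) F).map σ = J (Fin m) F := by
  rw [J, fromBlocks_map]
  congr 1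
  · ext i j; simp
  · ext i j
    by_cases h : i = j
    · subst h; simp
    · simp [Matrix.one_apply_ne h]
  · ext i j
    by_cases h : i = j
    · subst h; simp
    · simp [Matrix.one_apply_ne h]
  · ext i j; simp

/-- a field automorphism on the symplectic group -/
def mgS (σ : F ≃+* F) (k : symplecticGroup (Fin m) F) : symplecticGroup (Fin m) F :=
  ⟨(k : Matrix (Fin m ⊕ Fin m) (Fin m ⊕ Fin m) F).map σ, by
    have h1 := (SymplecticGroup.mem_iff').1 k.2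
    rw [SymplecticGroup.mem_iff']
    have h2 : ((k : Matrix (Fin m ⊕ Fin m) (Fin m ⊕ Fin m) F)ᵀ * J (Fin m) F * k).map σ = (J (Fin m) F).map σ :=
      congrArg (fun M : Matrix (Fin m ⊕ Fin m) (Fin m ⊕ Fin m) F => M.map σ) h1
    rw [J_map] at h2
    have e1 : ((k : Matrix (Fin m ⊕ Fin m) (Fin m ⊕ Fin m) F)ᵀ * J (Fin m) F * k).map σ =
        ((k : Matrix (Fin m ⊕ Fin m) (Fin m ⊕ Fin m) F)ᵀ).map σ * (J (Fin m) F).map σ *
          (k : Matrix (Fin m ⊕ Fin m) (Fin m ⊕ Fin m) F).map σ := by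
      rw [map_mul', map_mul']
    rw [e1, J_map] at h2
    exact h2⟩

theorem coe_mgS (σ : F ≃+* F) (k : symplecticGroup (Fin m) F) :
    (mgS σ k : Matrix (Fin m ⊕ Fin m) (Fin m ⊕ Fin m) F) =
      (k : Matrix (Fin m ⊕ Fin m) (Fin m ⊕ Fin m) F).map σ := rfl

theorem blk_mgS (σ : F ≃+* F) (k : symplecticGroup (Fin m) F) : blk m F (mgS σ k) = mg σ (blk m F k) := by
  apply Units.ext
  rw [coe_mg, coe_blk, coe_blk, fromBlocks_map, coe_mgS]
  congr 1
  · ext i j; simp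
  · ext i j; simp
  · ext i j; simp

/-- alternating -/
theorem alt (v : Fin m ⊕ Fin m → F) : v ⬝ᵥ (J (Fin m) F *ᵥ v) = 0 := sympForm_self v

theorem col_quad {κ : Type} [Fintype κ] (M : Matrix (Fin m ⊕ Fin m) κ F) (j : κ) :
    (Mᵀ * J (Fin m) F * M) j j = 0 := by
  have h := alt (F := F) (M.col j)
  rw [Matrix.mul_assoc, Matrix.mul_apply]
  rw [dotProduct] at h
  rw [← h]
  refine Finset.sum_congr rfl fun i _ => ?_
  rfl

variable [Fintype F] [CharP F 2]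

/-- the automorphisms commuting with the polarity -/
theorem exists_s (B : GL (Unit ⊕ (Fin m ⊕ Fin m)) F)
    (hB : (B : Matrix (Unit ⊕ (Fin m ⊕ Fin m)) (Unit ⊕ (Fin m ⊕ Fin m)) F) = fromBlocks 1 0 0 (J (Fin m) F))
    (A : GL (Unit ⊕ (Fin m ⊕ Fin m)) F) (σ : F ≃+* F) {c : F} (hc : c ≠ 0)
    (h : (B : Matrix (Unit ⊕ (Fin m ⊕ Fin m)) (Unit ⊕ (Fin m ⊕ Fin m)) F).map σ =
      c • ((A : Matrix (Unit ⊕ (Fin m ⊕ Fin m)) (Unit ⊕ (Fin m ⊕ Fin m)) F)ᵀ * B * A)) :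
    ∃ (s : symplecticGroup (Fin m) F) (a : F), a ≠ 0 ∧
      (A : Matrix (Unit ⊕ (Fin m ⊕ Fin m)) (Unit ⊕ (Fin m ⊕ Fin m)) F) = a • (blk m F s : Matrix (Unit ⊕ (Fin m ⊕ Fin m)) (Unit ⊕ (Fin m ⊕ Fin m)) F) := by
  obtain ⟨a11, a12, a21, a22, hA⟩ : ∃ (a11 : Matrix Unit Unit F) (a12 : Matrix Unit (Fin m ⊕ Fin m) F)
      (a21 : Matrix (Fin m ⊕ Fin m) Unit F) (a22 : Matrix (Fin m ⊕ Fin m) (Fin m ⊕ Fin m) F),
      (A : Matrix (Unit ⊕ (Fin m ⊕ Fin m)) (Unit ⊕ (Fin m ⊕ Fin m)) F) = fromBlocks a11 a12 a21 a22 :=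
    ⟨_, _, _, _, (fromBlocks_toBlocks _).symm⟩
  have hBσ : (B : Matrix (Unit ⊕ (Fin m ⊕ Fin m)) (Unit ⊕ (Fin m ⊕ Fin m)) F).map σ = fromBlocks 1 0 0 (J (Fin m) F) := by
    rw [hB, fromBlocks_map, J_map]
    congr 1
    · ext i j; simp
    · ext i j; simp
    · ext i j; simp
  rw [hBσ, hB, hA, fromBlocks_transpose, fromBlocks_multiply, fromBlocks_multiply, fromBlocks_smul] at h
  simp only [Matrix.mul_one, Matrix.mul_zero, add_zero, zero_add] at h
  rw [fromBlocks_inj] at h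
  obtain ⟨h1, h2, h3, h4⟩ := h
  have h12 : a12 = 0 := by
    ext u j
    have h5 := congrFun (congrFun h4 j) j
    rw [Matrix.smul_apply, Matrix.add_apply, col_quad, add_zero] at h5
    have h6 : J (Fin m) F j j = 0 := by
      rw [J]
      rcases j with j | j <;> simp
    rw [h6, Matrix.mul_apply, smul_eq_mul] at h5
    have h7 := (mul_eq_zero.1 h5.symm).resolve_left hc
    rw [Fintype.sum_unique, transpose_apply] at h7
    have h8 := mul_self_eq_zero.1 h7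
    rw [Matrix.zero_apply]
    exact h8
  have h11 : c * (a11 () () * a11 () ()) = 1 := by
    have h5 := congrFun (congrFun h1 ()) ()
    rw [Matrix.smul_apply, Matrix.add_apply, col_quad, add_zero, Matrix.mul_apply, Fintype.sum_unique,
      transpose_apply, smul_eq_mul, Matrix.one_apply_eq] at h5
    exact h5.symm
  rw [h12] at h3 h4
  simp only [transpose_zero, Matrix.zero_mul, Matrix.mul_zero, zero_add] at h3 h4
  have h21 : a21 = 0 := by
    have h5 : (a22ᵀ * J (Fin m) F) * (-(c • (a22 * J (Fin m) F))) = 1 := by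
      rw [Matrix.mul_neg, Matrix.mul_smul, ← Matrix.mul_assoc, ← Matrix.smul_mul, ← h4, J_squared, neg_neg]
    have h6 := mul_eq_one_comm.1 h5
    have h7 : a22ᵀ * J (Fin m) F * a21 = 0 := by
      have := h3.symm
      exact (smul_eq_zero.1 this).resolve_left hc
    calc a21 = (-(c • (a22 * J (Fin m) F))) * (a22ᵀ * J (Fin m) F) * a21 := by rw [h6, Matrix.one_mul]
      _ = (-(c • (a22 * J (Fin m) F))) * ((a22ᵀ * J (Fin m) F) * a21) := by rw [Matrix.mul_assoc]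
      _ = 0 := by rw [h7, Matrix.mul_zero]
  set a := a11 () () with ha
  have ha0 : a ≠ 0 := by
    intro h0
    rw [h0, mul_zero, mul_zero] at h11
    exact zero_ne_one h11
  have hs : a⁻¹ • a22 ∈ symplecticGroup (Fin m) F := by
    rw [SymplecticGroup.mem_iff', transpose_smul, Matrix.smul_mul, Matrix.smul_mul, Matrix.mul_smul, smul_smul]
    have e : a⁻¹ * a⁻¹ = c := by
      field_simp
      rw [← h11]; ring
    rw [e, ← h4]
  refine ⟨⟨a⁻¹ • a22, hs⟩, a, ha0, ?_⟩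
  rw [hA, coe_blk, fromBlocks_smul, h12, h21]
  congr 1
  · ext i j
    rw [Matrix.smul_apply, smul_eq_mul, Subsingleton.elim i (), Subsingleton.elim j (), Matrix.one_apply_eq, mul_one]
  · rw [smul_zero]
  · rw [smul_zero]
  · rw [smul_smul, mul_inv_cancel₀ ha0, one_smul]

/-- the automorphism commuting with the polarity is semilinear on `K` -/
theorem exists_sem (hm : 1 ≤ m) (B : GL (Unit ⊕ (Fin m ⊕ Fin m)) F)
    (hB : (B : Matrix (Unit ⊕ (Fin m ⊕ Fin m)) (Unit ⊕ (Fin m ⊕ Fin m)) F) = fromBlocks 1 0 0 (J (Fin m) F))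
    (x : MulAut (Matrix.ProjectiveSpecialLinearGroup (Unit ⊕ (Fin m ⊕ Fin m)) F)) {r : ℕ} (hr : Odd r)
    (hx : x ^ r = 1) (hc : gam B * x = x * gam B) :
    ∃ (s : symplecticGroup (Fin m) F) (σ : F ≃+* F), x = Sem (blk m F s) σ := by
  have hn : Nontrivial (Unit ⊕ (Fin m ⊕ Fin m)) := ⟨Sum.inl (), Sum.inr (Sum.inl ⟨0, hm⟩), by simp⟩
  obtain ⟨A, σ, rfl⟩ := exists_sem_of_odd (by
    rw [Fintype.card_sum, Fintype.card_sum, Fintype.card_unit, Fintype.card_fin]; omega) x hr hx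
  obtain ⟨c, hc0, h⟩ := (gam_comm_iff A σ B).1 hc
  obtain ⟨s, a, ha, hA⟩ := exists_s B hB A σ hc0 h
  refine ⟨s, σ, ?_⟩
  rw [Sem, Sem]
  congr 1
  exact (Cj_eq_iff.2 ⟨a, ha, hA⟩).symm

theorem transv_inj {v w : Fin m ⊕ Fin m → F} (h : transv v (1 : F) = transv w 1) : v = w := by
  have h1 := congrArg (fun k : symplecticGroup (Fin m) F => (k : Matrix (Fin m ⊕ Fin m) (Fin m ⊕ Fin m) F)) h
  simp only [coe_transv, sympTransvection_def, add_right_inj, one_smul] at h1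
  have h2 : ∀ i j, v i * v j = w i * w j := by
    intro i j
    rcases j with j | j
    · have h3 := congrFun (congrFun h1 i) (Sum.inr j)
      rwa [vecMulVec_apply, vecMulVec_apply, J_mulVec_inr, J_mulVec_inr] at h3
    · have h3 := congrFun (congrFun h1 i) (Sum.inl j)
      rw [vecMulVec_apply, vecMulVec_apply, J_mulVec_inl, J_mulVec_inl] at h3
      simpa using h3
  funext i
  have h3 := h2 i i
  rw [← pow_two, ← pow_two] at h3
  exact CharTwo.sq_injective h3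

theorem mgS_transv (σ : F ≃+* F) (v : Fin m ⊕ Fin m → F) :
    mgS σ (transv v (1 : F)) = transv (fun i => σ (v i)) 1 := by
  apply Subtype.ext
  rw [coe_mgS, coe_transv, coe_transv, sympTransvection_def, sympTransvection_def]
  ext i j
  rw [Matrix.map_apply, Matrix.add_apply, Matrix.add_apply, one_smul, one_smul, map_add, vecMulVec_apply,
    vecMulVec_apply, map_mul]
  congr 1
  · by_cases h : i = j
    · subst h; simp
    · simp [Matrix.one_apply_ne h]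
  · congr 1
    rcases j with j | j
    · rw [J_mulVec_inl, J_mulVec_inl, map_neg]
    · rw [J_mulVec_inr, J_mulVec_inr]

/-- only the identity centralises `K` -/
theorem eq_one_of_cent (hm : 1 ≤ m) (s : symplecticGroup (Fin m) F) (σ : F ≃+* F)
    (h : ∀ k, Sem (blk m F s) σ * Cj (blk m F k) = Cj (blk m F k) * Sem (blk m F s) σ) :
    s = 1 ∧ σ = RingEquiv.refl F := by
  have hn : Nontrivial (Unit ⊕ (Fin m ⊕ Fin m)) := ⟨Sum.inl (), Sum.inr (Sum.inl ⟨0, hm⟩), by simp⟩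
  have h1 : ∀ k, s * mgS σ k = k * s := by
    intro k
    obtain ⟨c, hc, h2⟩ := (Sem_comm_iff _ _ _).1 (h k)
    rw [← coe_mg, ← blk_mgS, ← Units.val_mul, ← Units.val_mul, ← map_mul, ← map_mul, coe_blk, coe_blk,
      fromBlocks_smul, fromBlocks_inj] at h2
    obtain ⟨h3, -, -, h4⟩ := h2
    have h5 := congrFun (congrFun h3 ()) ()
    rw [Matrix.smul_apply, Matrix.one_apply_eq, smul_eq_mul, mul_one] at h5
    rw [← h5, one_smul] at h4
    exact Subtype.ext h4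
  have h2 : ∀ v : Fin m ⊕ Fin m → F, (s : Matrix (Fin m ⊕ Fin m) (Fin m ⊕ Fin m) F) *ᵥ (fun i => σ (v i)) = v := by
    intro v
    have h3 := h1 (transv v 1)
    rw [mgS_transv] at h3
    have h4 : s * transv (fun i => σ (v i)) (1 : F) =
        transv ((s : Matrix (Fin m ⊕ Fin m) (Fin m ⊕ Fin m) F) *ᵥ (fun i => σ (v i))) 1 * s :=
      Subtype.ext (mul_sympTransvection s.2 _ _)
    rw [h4] at h3
    exact transv_inj (mul_right_cancel h3)
  have h3 : (s : Matrix (Fin m ⊕ Fin m) (Fin m ⊕ Fin m) F) = 1 := by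
    ext i j
    have h4 := congrFun (h2 (Pi.single j 1)) i
    have h5 : (fun i => σ ((Pi.single j (1 : F) : Fin m ⊕ Fin m → F) i)) = Pi.single j 1 := by
      funext l
      by_cases hl : l = j
      · subst hl; simp
      · simp [hl]
    rw [h5, Matrix.mulVec_single_one] at h4
    rw [Matrix.one_apply]
    change (s : Matrix (Fin m ⊕ Fin m) (Fin m ⊕ Fin m) F) i j = _ at h4
    rw [h4, Pi.single_apply]
  refine ⟨Subtype.ext h3, ?_⟩
  apply RingEquiv.ext
  intro a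
  have h4 := congrFun (h2 (fun _ => a)) (Sum.inl ⟨0, hm⟩)
  rw [h3, Matrix.one_mulVec] at h4
  exact h4

/-- the root element -/
def q0 (m : ℕ) (F : Type) [Field F] (v : Fin m ⊕ Fin m → F) : GL (Unit ⊕ (Fin m ⊕ Fin m)) F where
  val := fromBlocks 1 0 (Matrix.of fun i _ => v i) 1
  inv := fromBlocks 1 0 (-(Matrix.of fun i _ => v i)) 1
  val_inv := by
    rw [fromBlocks_multiply, ← fromBlocks_one]
    simp
  inv_val := by
    rw [fromBlocks_multiply, ← fromBlocks_one]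
    simp

theorem coe_q0 (v : Fin m ⊕ Fin m → F) :
    (q0 m F v : Matrix (Unit ⊕ (Fin m ⊕ Fin m)) (Unit ⊕ (Fin m ⊕ Fin m)) F) =
      fromBlocks 1 0 (Matrix.of fun i _ => v i) 1 := rfl

theorem q0_det (v : Fin m ⊕ Fin m → F) :
    (q0 m F v : Matrix (Unit ⊕ (Fin m ⊕ Fin m)) (Unit ⊕ (Fin m ⊕ Fin m)) F).det = 1 := by
  rw [coe_q0, det_fromBlocks_zero₁₂, det_one, det_one, one_mul]

theorem q0_comm (v : Fin m ⊕ Fin m → F) : q0 m F v * blk m F (transv v 1) = blk m F (transv v 1) * q0 m F v := by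
  apply Units.ext
  rw [Units.val_mul, Units.val_mul, coe_q0, coe_blk, fromBlocks_multiply, fromBlocks_multiply]
  simp only [Matrix.mul_one, Matrix.mul_zero, Matrix.zero_mul, Matrix.one_mul, add_zero, zero_add]
  congr 1
  ext i u
  have h1 := congrFun (sympTransvection_mulVec v v (1 : F)) i
  rw [sympForm_self, mul_zero, zero_smul, add_zero] at h1
  rw [coe_transv]
  exact h1.symm

theorem coe_B_inv (B : GL (Unit ⊕ (Fin m ⊕ Fin m)) F)
    (hB : (B : Matrix (Unit ⊕ (Fin m ⊕ Fin m)) (Unit ⊕ (Fin m ⊕ Fin m)) F) = fromBlocks 1 0 0 (J (Fin m) F)) :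
    ((B⁻¹ : GL (Unit ⊕ (Fin m ⊕ Fin m)) F) : Matrix (Unit ⊕ (Fin m ⊕ Fin m)) (Unit ⊕ (Fin m ⊕ Fin m)) F) =
      fromBlocks 1 0 0 (-J (Fin m) F) := by
  have h1 : (B : Matrix (Unit ⊕ (Fin m ⊕ Fin m)) (Unit ⊕ (Fin m ⊕ Fin m)) F) * fromBlocks 1 0 0 (-J (Fin m) F) = 1 := by
    rw [hB, fromBlocks_multiply, ← fromBlocks_one]
    simp only [Matrix.mul_one, Matrix.mul_zero, Matrix.zero_mul, add_zero, zero_add, Matrix.mul_neg, J_squared,
      neg_neg, neg_zero]
  calc ((B⁻¹ : GL (Unit ⊕ (Fin m ⊕ Fin m)) F) : Matrix (Unit ⊕ (Fin m ⊕ Fin m)) (Unit ⊕ (Fin m ⊕ Fin m)) F) =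
      ((B⁻¹ : GL (Unit ⊕ (Fin m ⊕ Fin m)) F) : Matrix (Unit ⊕ (Fin m ⊕ Fin m)) (Unit ⊕ (Fin m ⊕ Fin m)) F) *
        ((B : Matrix (Unit ⊕ (Fin m ⊕ Fin m)) (Unit ⊕ (Fin m ⊕ Fin m)) F) * fromBlocks 1 0 0 (-J (Fin m) F)) := by
        rw [h1, Matrix.mul_one]
    _ = _ := by
        rw [← Matrix.mul_assoc, ← Units.val_mul, inv_mul_cancel, Units.val_one, Matrix.one_mul]

/-- `(q q*)² = k₀` -/
theorem sq_eq (B : GL (Unit ⊕ (Fin m ⊕ Fin m)) F)
    (hB : (B : Matrix (Unit ⊕ (Fin m ⊕ Fin m)) (Unit ⊕ (Fin m ⊕ Fin m)) F) = fromBlocks 1 0 0 (J (Fin m) F))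
    (v : Fin m ⊕ Fin m → F) :
    (q0 m F v * (B⁻¹ * (ct (q0 m F v))⁻¹ * B)) * (q0 m F v * (B⁻¹ * (ct (q0 m F v))⁻¹ * B)) =
      blk m F (transv v 1) := by
  set V : Matrix (Fin m ⊕ Fin m) Unit F := Matrix.of fun i _ => v i with hV
  have e1 : ((q0 m F v * (B⁻¹ * (ct (q0 m F v))⁻¹ * B) : GL (Unit ⊕ (Fin m ⊕ Fin m)) F) :
      Matrix (Unit ⊕ (Fin m ⊕ Fin m)) (Unit ⊕ (Fin m ⊕ Fin m)) F) =
      fromBlocks 1 (Vᵀ * J (Fin m) F) V (V * (Vᵀ * J (Fin m) F) + 1) := by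
    rw [Units.val_mul, coe_adj, coe_B_inv B hB, hB, coe_q0, fromBlocks_transpose, fromBlocks_multiply,
      fromBlocks_multiply, fromBlocks_multiply]
    simp only [Matrix.mul_one, Matrix.mul_zero, Matrix.zero_mul, Matrix.one_mul, add_zero, zero_add, Matrix.neg_mul,
      J_squared, neg_neg, transpose_one, transpose_zero, ← hV]
  have e2 : Vᵀ * J (Fin m) F * V = 0 := by
    ext i j
    exact col_quad V j
  have e3 : V * (Vᵀ * J (Fin m) F) = vecMulVec v (J (Fin m) F *ᵥ v) := by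
    ext i j
    rw [Matrix.mul_apply, Fintype.sum_unique, vecMulVec_apply, hV]
    change v i * _ = _
    congr 1
    have h1 : (Vᵀ * J (Fin m) F) () j = (v ᵥ* J (Fin m) F) j := rfl
    have h2 : (v ᵥ* J (Fin m) F) = -(J (Fin m) F *ᵥ v) := by
      rw [← Matrix.mulVec_transpose, J_transpose, Matrix.neg_mulVec]
    rw [h1, h2, Pi.neg_apply, CharTwo.neg_eq]
  have hadd : ∀ {κ κ' : Type} (M : Matrix κ κ' F), M + M = 0 := by
    intro κ κ' M
    ext i j
    exact CharTwo.add_self_eq_zero _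
  have e4 : (Vᵀ * J (Fin m) F) * (V * (Vᵀ * J (Fin m) F)) = 0 := by
    rw [← Matrix.mul_assoc, e2, Matrix.zero_mul]
  have e5 : (V * (Vᵀ * J (Fin m) F)) * V = 0 := by
    rw [Matrix.mul_assoc, e2, Matrix.mul_zero]
  have e6 : (V * (Vᵀ * J (Fin m) F)) * (V * (Vᵀ * J (Fin m) F)) = 0 := by
    rw [Matrix.mul_assoc, e4, Matrix.mul_zero]
  apply Units.ext
  rw [Units.val_mul, e1, fromBlocks_multiply, coe_blk, coe_transv, sympTransvection_def, one_smul, ← e3]
  congr 1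
  · rw [e2, Matrix.mul_one, add_zero]
  · rw [Matrix.mul_add, e4, Matrix.mul_one, Matrix.one_mul, zero_add, hadd]
  · rw [Matrix.add_mul, e5, Matrix.mul_one, Matrix.one_mul, zero_add, hadd]
  · rw [Matrix.add_mul, Matrix.mul_add, e6, Matrix.mul_one, Matrix.one_mul, zero_add, ← add_assoc, hadd,
      zero_add, add_comm]

/-- **BP1** -/
theorem killed_P1 {F : Type} [Field F] [Fintype F] [CharP F 2] {m : ℕ} (hm : 1 ≤ m)
    (hs : IsSimpleGroup (PSp m F)) (hnc : ¬ IsMulCommutative (PSp m F))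
    (hRC : Nat.card (PSp m F) <
      Nat.card (Matrix.ProjectiveSpecialLinearGroup (Unit ⊕ (Fin m ⊕ Fin m)) F) → RCo (PSp m F))
    (B : GL (Unit ⊕ (Fin m ⊕ Fin m)) F)
    (hB : (B : Matrix (Unit ⊕ (Fin m ⊕ Fin m)) (Unit ⊕ (Fin m ⊕ Fin m)) F) =
      fromBlocks 1 0 0 (J (Fin m) F)) :
    Killed (gam B) := by
  classical
  have hn : Nontrivial (Unit ⊕ (Fin m ⊕ Fin m)) := ⟨Sum.inl (), Sum.inr (Sum.inl ⟨0, hm⟩), by simp⟩
  have hS : IsSimpleGroup (Matrix.ProjectiveSpecialLinearGroup (Unit ⊕ (Fin m ⊕ Fin m)) F) :=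
    Cfsg.Agent.LieClassical.SLGen.psl_isSimpleGroup (by
      rw [Fintype.card_sum, Fintype.card_sum, Fintype.card_unit, Fintype.card_fin]; omega)
  let f : symplecticGroup (Fin m) F →* MulAut (Matrix.ProjectiveSpecialLinearGroup (Unit ⊕ (Fin m ⊕ Fin m)) F) :=
    Cj.comp (blk m F)
  have hf1 : ∀ k, f k = 1 → k = 1 := by
    intro k hk
    obtain ⟨c, hc⟩ := Cj_eq_one_iff.1 hk
    rw [coe_blk, ← fromBlocks_one, fromBlocks_smul, fromBlocks_inj] at hc
    obtain ⟨h1, -, -, h4⟩ := hc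
    have h5 := congrFun (congrFun h1 ()) ()
    rw [Matrix.smul_apply, Matrix.one_apply_eq, smul_eq_mul, mul_one] at h5
    rw [← h5, one_smul] at h4
    exact Subtype.ext h4
  have hf : ∀ k, f k = 1 ↔ k ∈ Subgroup.center (symplecticGroup (Fin m) F) := by
    intro k
    rw [Cfsg.Agent.ClassicalGeometry.Sp4GraphAut.center_eq_bot hm, Subgroup.mem_bot]
    exact ⟨hf1 k, fun h => by rw [h, map_one]⟩
  have hfi : ∀ k, f k ∈ inn (Matrix.ProjectiveSpecialLinearGroup (Unit ⊕ (Fin m ⊕ Fin m)) F) := fun k =>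
    Cj_mem_inn _ (blk_det k)
  have ht2 : gam B * gam B = 1 := gam_sq B (Or.inl (by
    rw [hB, fromBlocks_transpose, J_transpose]
    congr 1
    ext i j
    rw [Matrix.neg_apply, CharTwo.neg_eq]))
  have ht : ∀ k, gam B * f k = f k * gam B := by
    intro k
    refine (gam_comm_Cj_iff _ _).2 ⟨1, one_ne_zero, ?_⟩
    rw [one_smul, coe_blk, hB, fromBlocks_transpose, fromBlocks_multiply, fromBlocks_multiply]
    simp only [Matrix.mul_one, Matrix.mul_zero, add_zero, zero_add, transpose_one, transpose_zero, Matrix.zero_mul]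
    rw [(SymplecticGroup.mem_iff').1 k.2]
  -- the root element
  set v : Fin m ⊕ Fin m → F := Pi.single (Sum.inl ⟨0, hm⟩) 1 with hv
  have hk0 : f (transv v 1) ≠ 1 := by
    intro h
    have h1 := hf1 _ h
    have h2 : transv v (1 : F) = transv (0 : Fin m ⊕ Fin m → F) 1 := by
      rw [h1]
      apply Subtype.ext
      rw [coe_transv, sympTransvection_def, Matrix.mulVec_zero]
      ext i j
      simp
    have h3 := congrFun (transv_inj h2) (Sum.inl ⟨0, hm⟩)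
    rw [hv, Pi.single_eq_same] at h3
    exact one_ne_zero h3
  have hgen : f (transv v 1) = (Cj (q0 m F v) * gam B * (Cj (q0 m F v))⁻¹ * (gam B)⁻¹) *
      (Cj (q0 m F v) * gam B * (Cj (q0 m F v))⁻¹ * (gam B)⁻¹) := by
    rw [comm_gam, ← map_mul, sq_eq B hB]
    rfl
  have ht1 : gam B ≠ 1 := by
    intro h
    apply hk0
    rw [hgen, h]
    group
  have hSn : ¬ IsMulCommutative (Matrix.ProjectiveSpecialLinearGroup (Unit ⊕ (Fin m ⊕ Fin m)) F) := by
    intro h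
    obtain ⟨s, hs⟩ := hfi (transv v 1)
    apply hk0
    rw [← hs]
    apply MulEquiv.ext
    intro y
    change s * y * s⁻¹ = y
    rw [mul_comm' s y, mul_inv_cancel_right]
  have hlt : Nat.card (PSp m F) < Nat.card (Matrix.ProjectiveSpecialLinearGroup (Unit ⊕ (Fin m ⊕ Fin m)) F) :=
    card_lt_of_cent hS hSn f hf hfi (gam B) ht1 ht
  refine (killed_iff _).2 fun κ _ x r hF H hcov => ?_
  have hex : ∀ i, ∃ (s : symplecticGroup (Fin m) F) (σ : F ≃+* F), x i = Sem (blk m F s) σ := fun i =>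
    exists_sem hm B hB (x i) ((hF.pr i).odd_of_ne_two (hF.ne2 i)) (hF.pow i) (hF.commt i)
  refine fam_K hS hF ht2 hcov f hf hs hnc (hRC hlt) hfi ht ?_ ?_ (transv v 1) hk0 ?_
  · intro i k
    obtain ⟨s, σ, e⟩ := hex i
    refine ⟨s * mgS σ k * s⁻¹, ?_⟩
    change x i * Cj (blk m F k) * (x i)⁻¹ = Cj (blk m F _)
    rw [e, Sem_conj_Cj, map_mul (blk m F), map_mul (blk m F), blk_mgS, map_inv (blk m F)]
  · intro i h
    obtain ⟨s, σ, e⟩ := hex i
    obtain ⟨h1, h2⟩ := eq_one_of_cent hm s σ (fun k => by rw [← e]; exact h k)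
    apply hF.ne1 i
    rw [e, h1, h2, map_one, Sem_one, map_one]
  · have h1 : Cj (q0 m F v) * gam B * (Cj (q0 m F v))⁻¹ * (gam B)⁻¹ ∈ Subgroup.closure
        {z | ∃ q ∈ inn (Matrix.ProjectiveSpecialLinearGroup (Unit ⊕ (Fin m ⊕ Fin m)) F),
          q * f (transv v 1) = f (transv v 1) * q ∧ z = q * gam B * q⁻¹ * (gam B)⁻¹} := by
      refine Subgroup.subset_closure ⟨Cj (q0 m F v), Cj_mem_inn _ (q0_det v), ?_, rfl⟩
      change Cj (q0 m F v) * Cj (blk m F (transv v 1)) = Cj (blk m F (transv v 1)) * Cj (q0 m F v)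
      rw [← map_mul, ← map_mul, q0_comm]
    have h2 := mul_mem h1 h1
    rwa [← hgen] at h2

end Cfsg.Agent.H287.RC
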